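import Groth.Agent.PerfB.KoszulOrth
import Mathlib.CategoryTheory.Triangulated.TStructure.TruncLEGT

/-!
# Fixed-degree versions of the Koszul orthogonality lemmas

* `eq_zero_of_cone_at`, `eq_zero_of_kosOn_at`: the induction on the Koszul complex in one fixed degree;
* `isZero_HD_of_orth_at`: an object `C` of `D_QCoh(Spec A)` vanishing on the complement of `V(fs)` such
  that all `K[-n] ⟶ C` vanish (for one fixed `n`) has `H^n(C) = 0`;
* `isZero_map_cone_unit`, `cone_hom`: the cone of the unit `E ⟶ R L E`.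
-/

set_option autoImplicit false
universe w v u u'
open CategoryTheory CategoryTheory.Limits AlgebraicGeometry CategoryTheory.Pretriangulated
  CategoryTheory.Triangulated

namespace Groth.Agent.Old.H4.KoszulTrunc

open Groth.Agent.PerfA Groth.Agent.PerfB.KoszulHom Groth.Agent.PerfB.KoszulOn
open Groth.Agent.PerfB.PowerTorsion Groth.Agent.PerfB.KoszulOrth Groth.Agent.PerfB

section Abstract

/-- one step of the orthogonality argument, in a fixed degree. -/
lemma eq_zero_of_cone_at {A : Type*} [CommRing A] {D : Type*} [Category* D] [HasZeroObject D]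
    [HasShift D ℤ] [Preadditive D] [∀ n : ℤ, (shiftFunctor D n).Additive] [Pretriangulated D]
    [Linear A D] [∀ n : ℤ, (shiftFunctor D n).Linear A] {X Y M : D} (f : A) (g : X ⟶ Y)
    (h : Y ⟶ X⟦(1 : ℤ)⟧) (hT : Triangle.mk (f • 𝟙 X) g h ∈ distTriang D) (n : ℤ)
    (hY : ∀ (φ : Y⟦n⟧ ⟶ M), φ = 0) (hX : PT f M X) (φ : X⟦n⟧ ⟶ M) : φ = 0 := by
  have key : ∀ ψ : X⟦n⟧ ⟶ M, f • ψ = 0 → ψ = 0 := by
    intro ψ hψ
    have hT' := Triangle.shift_distinguished _ hT n
    obtain ⟨χ, hχ⟩ := Triangle.yoneda_exact₂ _ hT' ψ (by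
      change (n.negOnePow • (f • 𝟙 X)⟦n⟧') ≫ ψ = 0
      rw [Functor.map_smul, CategoryTheory.Functor.map_id, Linear.units_smul_comp,
        Linear.smul_comp, Category.id_comp, hψ, smul_zero])
    have h0 : χ = 0 := hY χ
    subst h0
    exact hχ.trans comp_zero
  obtain ⟨k, hk⟩ := hX n φ
  induction k with
  | zero => simpa using hk
  | succ k ih =>
    apply ih
    apply key
    rw [smul_smul, ← pow_succ', hk]

variable {A : Type*} [CommRing A] {C : Type u} [Category.{v} C] [Abelian C] [Linear A C]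
  [HasDerivedCategory.{w} C]

/-- If all morphisms `kosOn K l⟦n⟧ ⟶ M` vanish and the morphisms `K⟦n⟧ ⟶ M` are `l`-power torsion,
then all morphisms `K⟦n⟧ ⟶ M` vanish (for one fixed `n`). -/
theorem eq_zero_of_kosOn_at (K : CochainComplex C ℤ) (M : DerivedCategory C) (n : ℤ) :
    ∀ l : List A, (∀ a ∈ l, PT a M (DerivedCategory.Q.obj K)) →
    (∀ (φ : (DerivedCategory.Q.obj (kosOn K l))⟦n⟧ ⟶ M), φ = 0) →
    ∀ (φ : (DerivedCategory.Q.obj K)⟦n⟧ ⟶ M), φ = 0
  | [], _, h => h
  | f :: l, hl, h => by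
      obtain ⟨δ, hδ⟩ := exists_triangle K f l
      refine eq_zero_of_kosOn_at K M n l (fun a ha => hl a (List.mem_cons_of_mem _ ha)) ?_
      exact eq_zero_of_cone_at f _ _ hδ n h (prop_kosOn (PT f M) K (hl f List.mem_cons_self) l)

end Abstract

section Modules

attribute [local instance] HasDerivedCategory.standard

variable {A : Type u} [CommRing A]

/-- If every morphism `A[-i] ⟶ M` vanishes then `H^i(M) = 0`. -/
lemma isZero_homology_of_hom_eq_zero_at (M : DerivedCategory (ModuleCat.{u} A)) (i : ℤ)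
    (h : ∀ (φ : ((DerivedCategory.singleFunctor (ModuleCat.{u} A) 0).obj (ModuleCat.of A A))⟦-i⟧ ⟶ M),
      φ = 0) : IsZero ((DerivedCategory.homologyFunctor (ModuleCat.{u} A) i).obj M) := by
  refine IsZero.of_iso (isZero_homology_of_hom_eq_zero (M⟦i⟧) (fun φ => ?_))
    (homologyShiftIso M i 0 i (by simp)).symm
  have h2 := h (φ⟦-i⟧' ≫ (shiftShiftNeg M i).hom)
  apply (shiftFunctor (DerivedCategory (ModuleCat.{u} A)) (-i)).map_injective
  rw [Functor.map_zero, ← cancel_mono (shiftShiftNeg M i).hom, h2, zero_comp]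

variable (fs : List A) [PreservesFiniteLimits (tilde.functor (CommRingCat.of A))]

/-- Fixed-degree version of `KoszulOrth.isZero_of_orth_tilde`. -/
theorem isZero_homology_of_orth_tilde (M : DerivedCategory (ModuleCat.{u} A))
    (hU : IsZero ((Restrict.restrictD (punct fs).ι).obj ((DCoh.tildeD (CommRingCat.of A)).obj M)))
    (n : ℤ)
    (h : ∀ φ : (DerivedCategory.Q.obj (Koszul.koszul A fs))⟦-n⟧ ⟶ M, φ = 0) :
    IsZero ((DerivedCategory.homologyFunctor (ModuleCat.{u} A) n).obj M) := by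
  have htors : ∀ g ∈ fs, ∀ i, TorsD g i M := fun g hg i =>
    TildeTorsion.torsD_of_isZero_restrict M (punct fs) i
      (((DerivedCategory.homologyFunctor _ i).map_isZero hU).of_iso
        (Restrict.HDrestrict (punct fs).ι _ i).symm) g
      (TildeTorsion.basicOpen_le_puncturedOpen fs g hg)
  refine isZero_homology_of_hom_eq_zero_at M n ?_
  refine eq_zero_of_kosOn_at ((CochainComplex.singleFunctor (ModuleCat.{u} A) 0).obj (ModuleCat.of A A))
    M (-n) fs (fun g hg => PT_of_isBddFP g _ ?_ M (htors g hg)) ?_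
  · exact isBddFP_single _ fp_self 0
  · rw [kosOn_single_eq]
    exact h

/-- A faithful functor commuting with shifts reflects vanishing of morphisms from `K⟦n⟧`. -/
lemma orth_at_of_map {D D' : Type*} [Category* D] [HasShift D ℤ] [Preadditive D] [Category* D']
    [HasShift D' ℤ] [Preadditive D'] (F : D ⥤ D') [F.CommShift ℤ] [F.Faithful]
    [F.PreservesZeroMorphisms] {K E : D} (n : ℤ) (h : ∀ φ : (F.obj K)⟦n⟧ ⟶ F.obj E, φ = 0)
    (φ : K⟦n⟧ ⟶ E) : φ = 0 := by
  apply F.map_injective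
  rw [Functor.map_zero, ← cancel_epi ((F.commShiftIso n).inv.app K), comp_zero]
  exact h _

/-- An object `C` of `D_QCoh` which vanishes on `U` such that all morphisms `K[-n] ⟶ C` vanish (for
one fixed `n`) has `H^n(C) = 0`. -/
theorem isZero_HD_of_orth_at (C : DCoh.D (Spec (CommRingCat.of A))) (hC : DCoh.IsQCohD C)
    (hU : IsZero ((Restrict.restrictD (punct fs).ι).obj C)) (n : ℤ)
    (h : ∀ φ : ((DCoh.tildeD (CommRingCat.of A)).obj
      (DerivedCategory.Q.obj (Koszul.koszul A fs)))⟦-n⟧ ⟶ C, φ = 0) :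
    IsZero (DCoh.HD C n) := by
  obtain ⟨hfull, hfaith, hess⟩ := Groth.Agent.S0997.result (CommRingCat.of A)
  obtain ⟨M, ⟨e⟩⟩ := (hess C).1 hC
  have h1 : IsZero ((DerivedCategory.homologyFunctor (ModuleCat.{u} A) n).obj M) := by
    refine isZero_homology_of_orth_tilde fs M ?_ n ?_
    · exact hU.of_iso ((Restrict.restrictD (punct fs).ι).mapIso e)
    · refine orth_at_of_map (DCoh.tildeD (CommRingCat.of A)) (-n) fun φ => ?_
      rw [← cancel_mono e.hom, zero_comp]
      exact h _
  refine ((tilde.functor (CommRingCat.of A)).map_isZero h1).of_iso ?_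
  exact (DerivedCategory.homologyFunctor _ n).mapIso e.symm ≪≫ TildeSupp.HDtilde M n

end Modules

section Cone

variable {D : Type*} [Category* D] [HasShift D ℤ] [Preadditive D] [HasZeroObject D]
  [∀ n : ℤ, (shiftFunctor D n).Additive] [Pretriangulated D]

/-- In a triangle `E ⟶ E' ⟶ C ⟶ E[1]` with no maps from `K[-n-1]` to `E` and no maps from
`K[-n]` to `E'` there are no maps from `K[-n]` to `C`. -/
lemma cone_hom (T : Triangle D) (hT : T ∈ distTriang D) (K : D) (n m : ℤ) (hm : n + 1 = m)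
    (h₁ : ∀ φ : K⟦-m⟧ ⟶ T.obj₁, φ = 0) (h₂ : ∀ φ : K⟦-n⟧ ⟶ T.obj₂, φ = 0)
    (φ : K⟦-n⟧ ⟶ T.obj₃) : φ = 0 := by
  have h0 : φ ≫ T.mor₃ = 0 := by
    apply (shiftFunctor D (-1 : ℤ)).map_injective
    rw [Functor.map_zero,
      ← cancel_epi ((shiftFunctorAdd' D (-n) (-1) (-m) (by lia)).hom.app K), comp_zero,
      ← cancel_mono ((shiftFunctorCompIsoId D (1 : ℤ) (-1) (by lia)).hom.app T.obj₁), zero_comp]
    exact h₁ _
  obtain ⟨ψ, hψ⟩ := T.coyoneda_exact₃ hT φ h0
  rw [hψ, h₂ ψ, zero_comp]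

/-- The unit of any adjunction `L ⊣ R`, with invertible counit, has a cone killed by `L`. -/
lemma isZero_map_cone_unit {D' : Type*} [Category* D']
    [HasShift D' ℤ] [Preadditive D'] [HasZeroObject D']
    [∀ n : ℤ, (shiftFunctor D' n).Additive] [Pretriangulated D'] {L : D ⥤ D'} {R : D' ⥤ D}
    (adj : L ⊣ R) [IsIso adj.counit] [L.CommShift ℤ] [L.IsTriangulated] (E : D)
    {C : D} {g : R.obj (L.obj E) ⟶ C} {h : C ⟶ E⟦(1 : ℤ)⟧}
    (hT : Triangle.mk (adj.unit.app E) g h ∈ distTriang D) : IsZero (L.obj C) := by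
  refine (Triangle.isZero₃_iff_isIso₁ _ (L.map_distinguished _ hT)).2 ?_
  exact OpenAdj.isIso_map_unit_of_isIso_counit adj E

/-- Counits of two adjunctions between the same functors are simultaneously invertible. -/
lemma isIso_counit_of_adj {C D : Type*} [Category* C] [Category* D] {L : C ⥤ D} {R : D ⥤ C}
    (adj adj' : L ⊣ R) [IsIso adj.counit] : IsIso adj'.counit := by
  have h1 : R.Full := adj.fullyFaithfulROfIsIsoCounit.full
  have h2 : R.Faithful := adj.fullyFaithfulROfIsIsoCounit.faithful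
  infer_instance

end Cone

end Groth.Agent.Old.H4.KoszulTrunc
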